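import Mathlib
import Cfsg.Prelude.Def_SporadicB

/-!
Orthogonal transvections over the field with two elements: they are a class of 3-transpositions
generating the isometry group.
-/

set_option autoImplicit false

namespace Cfsg.Agent.TTClass.OrthF2

open Module

variable {V : Type*} [AddCommGroup V] [Module (ZMod 2) V]

/-- data of a quadratic form over ZMod 2 with nondegenerate polar form -/
structure IsQF (Q : V → ZMod 2) (B : V →ₗ[ZMod 2] V →ₗ[ZMod 2] ZMod 2) : Prop where
  add : ∀ u v, Q (u + v) = Q u + Q v + B u v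
  nd : ∀ v, (∀ w, B v w = 0) → v = 0

variable {Q : V → ZMod 2} {B : V →ₗ[ZMod 2] V →ₗ[ZMod 2] ZMod 2}

theorem z2 (c : ZMod 2) : c = 0 ∨ c = 1 := by revert c; decide

theorem add_self' (x : V) : x + x = 0 := ZModModule.add_self x

namespace IsQF

variable (h : IsQF Q B)
include h

theorem zero : Q 0 = 0 := by
  have := h.add 0 0
  simp only [add_zero, map_zero] at this
  rcases z2 (Q 0) with e | e <;> rw [e] at this ⊢ <;> revert this <;> decide

theorem self (u : V) : B u u = 0 := by
  have := h.add u u
  rw [add_self', h.zero] at this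
  rcases z2 (Q u) with e | e <;> rw [e] at this <;> rcases z2 (B u u) with f | f <;>
    rw [f] at this ⊢ <;> revert this <;> decide

theorem symm (u v : V) : B u v = B v u := by
  have := h.self (u + v)
  simp only [map_add, LinearMap.add_apply, h.self u, h.self v, zero_add, add_zero] at this
  rcases z2 (B u v) with e | e <;> rw [e] at this ⊢ <;> rcases z2 (B v u) with f | f <;>
    rw [f] at this ⊢ <;> revert this <;> decide

theorem ne_zero {v : V} (hv : Q v = 1) : v ≠ 0 := by
  rintro rfl
  rw [h.zero] at hv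
  exact zero_ne_one hv

end IsQF

/-- the transvection along v, as a map -/
def tmap (B : V →ₗ[ZMod 2] V →ₗ[ZMod 2] ZMod 2) (v : V) : V →ₗ[ZMod 2] V :=
  LinearMap.id + (B.flip v).smulRight v

theorem tmap_apply (v x : V) : tmap B v x = x + B x v • v := rfl

theorem tmap_tmap (h : IsQF Q B) (v x : V) : tmap B v (tmap B v x) = x := by
  simp only [tmap_apply, map_add, map_smul, LinearMap.add_apply, LinearMap.smul_apply, h.self v,
    smul_zero, zero_smul, add_zero]
  rw [add_assoc, add_self', add_zero]

open Classical in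
/-- the transvection along v as a linear automorphism (identity if the form data are broken) -/
noncomputable def tv (B : V →ₗ[ZMod 2] V →ₗ[ZMod 2] ZMod 2) (v : V) : V ≃ₗ[ZMod 2] V :=
  if hi : Function.Involutive (tmap B v) then LinearEquiv.ofInvolutive (tmap B v) hi
  else LinearEquiv.refl _ _

theorem tv_apply (h : IsQF Q B) (v x : V) : tv B v x = x + B x v • v := by
  have hi : Function.Involutive (tmap B v) := tmap_tmap h v
  rw [tv, dif_pos hi]
  rfl

theorem tv_of_one (h : IsQF Q B) {v x : V} (hx : B x v = 1) : tv B v x = x + v := by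
  rw [tv_apply h, hx, one_smul]

theorem tv_of_zero (h : IsQF Q B) {v x : V} (hx : B x v = 0) : tv B v x = x := by
  rw [tv_apply h, hx, zero_smul, add_zero]

theorem tv_mul_self (h : IsQF Q B) (v : V) : tv B v * tv B v = 1 := by
  ext x
  rw [LinearEquiv.mul_apply, tv_apply h, tv_apply h]
  exact tmap_tmap h v x

/-- the isometry group -/
def Iso (Q : V → ZMod 2) : Subgroup (V ≃ₗ[ZMod 2] V) where
  carrier := {g | ∀ x, Q (g x) = Q x}
  mul_mem' {a b} ha hb x := by rw [LinearEquiv.mul_apply, ha, hb]
  one_mem' x := rfl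
  inv_mem' {a} ha x := by
    have := ha (a.symm x)
    rw [a.apply_symm_apply] at this
    exact this.symm

theorem tv_mem (h : IsQF Q B) {v : V} (hv : Q v = 1) : tv B v ∈ Iso Q := by
  intro x
  rcases z2 (B x v) with e | e
  · rw [tv_of_zero h e]
  · rw [tv_of_one h e, h.add, hv, e]
    rcases z2 (Q x) with f | f <;> rw [f] <;> decide

theorem iso_B (h : IsQF Q B) {g : V ≃ₗ[ZMod 2] V} (hg : g ∈ Iso Q) (x y : V) :
    B (g x) (g y) = B x y := by
  have h1 := h.add (g x) (g y)
  rw [← map_add, hg (x + y), hg x, hg y, h.add] at h1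
  exact (add_left_cancel h1).symm

theorem conj_tv (h : IsQF Q B) {g : V ≃ₗ[ZMod 2] V} (hg : g ∈ Iso Q) (v : V) :
    g * tv B v * g⁻¹ = tv B (g v) := by
  ext x
  simp only [LinearEquiv.mul_apply, tv_apply h, map_add, map_smul]
  have e : g ((g⁻¹ : V ≃ₗ[ZMod 2] V) x) = x := g.apply_symm_apply x
  rw [e]
  congr 2
  conv_rhs => rw [← e]
  rw [iso_B h hg]

theorem tv_ne_one (h : IsQF Q B) {v : V} (hv : v ≠ 0) : tv B v ≠ 1 := by
  intro he
  apply hv
  apply h.nd
  intro w
  rw [h.symm]
  rcases z2 (B w v) with e | e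
  · exact e
  · exfalso
    have := congrArg (fun g : V ≃ₗ[ZMod 2] V => g w) he
    simp only [tv_of_one h e] at this
    exact hv (by simpa using this)

theorem tv_three (h : IsQF Q B) {u v : V} (hu : Q u = 1) (hv : Q v = 1) :
    (tv B u * tv B v) ^ 2 = 1 ∨ (tv B u * tv B v) ^ 3 = 1 := by
  have su := tv_mul_self h u
  have sv := tv_mul_self h v
  have iu : (tv B u)⁻¹ = tv B u := inv_eq_of_mul_eq_one_right su
  have iv : (tv B v)⁻¹ = tv B v := inv_eq_of_mul_eq_one_right sv
  rcases z2 (B v u) with e | e
  · left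
    have hc : tv B u * tv B v * (tv B u)⁻¹ = tv B v := by
      rw [conj_tv h (tv_mem h hu), tv_of_zero h e]
    rw [iu] at hc
    rw [pow_two, ← mul_assoc, hc, sv]
  · right
    have h1 : tv B u * tv B v * tv B u = tv B (v + u) := by
      have := conj_tv h (tv_mem h hu) v
      rwa [iu, tv_of_one h e] at this
    have h2 : tv B v * tv B u * tv B v = tv B (u + v) := by
      have := conj_tv h (tv_mem h hv) u
      rwa [iv, tv_of_one h (by rw [h.symm]; exact e)] at this
    rw [add_comm v u] at h1
    calc (tv B u * tv B v) ^ 3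
        = (tv B u * tv B v * tv B u) * (tv B v * tv B u * tv B v) := by
          simp only [pow_succ, pow_zero, one_mul, mul_assoc]
      _ = 1 := by rw [h1, h2, tv_mul_self h]

/-- rank-one isometries are transvections -/
theorem eq_tv_of_rank_one (h : IsQF Q B) {g : V ≃ₗ[ZMod 2] V} (hg : g ∈ Iso Q)
    (hr : finrank (ZMod 2) (LinearMap.range (g.toLinearMap - LinearMap.id)) = 1) :
    ∃ v, Q v = 1 ∧ g = tv B v := by
  obtain ⟨⟨v, hv⟩, hv0, hall⟩ := finrank_eq_one_iff'.1 hr
  have hv0' : v ≠ 0 := fun e => hv0 (Subtype.ext e)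
  have hd : ∀ x, g x = x ∨ g x = x + v := by
    intro x
    obtain ⟨c, hc⟩ := hall ⟨g x - x, ⟨x, rfl⟩⟩
    have hc' : c • v = g x - x := congrArg Subtype.val hc
    rcases z2 c with rfl | rfl
    · left
      rw [zero_smul] at hc'
      exact sub_eq_zero.1 hc'.symm
    · right
      rw [one_smul] at hc'
      rw [hc', add_sub_cancel]
  obtain ⟨x0, hx0⟩ := hv
  have hx0' : g x0 = x0 + v := by
    have hh : g x0 - x0 = v := hx0
    rw [← hh, add_sub_cancel]
  have hm : ∀ x, g x = x + v → B x v = Q v := by
    intro x hx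
    have := hg x
    rw [hx, h.add] at this
    rcases z2 (Q v) with e | e <;> rw [e] at this ⊢ <;> rcases z2 (B x v) with f | f <;>
      rw [f] at this ⊢ <;> rcases z2 (Q x) with k | k <;> rw [k] at this <;> revert this <;> decide
  have hf : ∀ x, g x = x → B x v = 0 := by
    intro x hx
    have h1 : g (x + x0) = (x + x0) + v := by rw [map_add, hx, hx0', add_assoc]
    have h2 := hm _ h1
    rw [map_add, LinearMap.add_apply, hm x0 hx0'] at h2
    simpa using h2
  have hQv : Q v = 1 := by
    rcases z2 (Q v) with e | e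
    · exfalso
      apply hv0'
      apply h.nd
      intro w
      rw [h.symm]
      rcases hd w with k | k
      · exact hf w k
      · rw [hm w k, e]
    · exact e
  refine ⟨v, hQv, ?_⟩
  ext x
  rcases hd x with k | k
  · rw [k, tv_of_zero h (hf x k)]
  · rw [k, tv_of_one h (by rw [hm x k, hQv])]

theorem rank_tv (h : IsQF Q B) {v : V} (hv : v ≠ 0) :
    finrank (ZMod 2) (LinearMap.range ((tv B v).toLinearMap - LinearMap.id)) = 1 := by
  have : LinearMap.range ((tv B v).toLinearMap - LinearMap.id) = Submodule.span (ZMod 2) {v} := by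
    apply le_antisymm
    · rintro _ ⟨x, rfl⟩
      rw [Submodule.mem_span_singleton]
      refine ⟨B x v, ?_⟩
      simp [tv_apply h]
    · rw [Submodule.span_singleton_le_iff_mem]
      obtain ⟨w, hw⟩ : ∃ w, B v w ≠ 0 := by
        by_contra hc
        push Not at hc
        exact hv (h.nd v hc)
      refine ⟨w, ?_⟩
      have : B w v = 1 := by
        rw [h.symm]
        rcases z2 (B v w) with e | e
        · exact absurd e hw
        · exact e
      simp [tv_apply h, this]
  rw [this]
  exact finrank_span_singleton hv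

/-- the subgroup generated by the transvections -/
def T (Q : V → ZMod 2) (B : V →ₗ[ZMod 2] V →ₗ[ZMod 2] ZMod 2) : Subgroup (V ≃ₗ[ZMod 2] V) :=
  Subgroup.closure {g | ∃ v, Q v = 1 ∧ g = tv B v}

theorem tv_mem_T {v : V} (hv : Q v = 1) : tv B v ∈ T Q B :=
  Subgroup.subset_closure ⟨v, hv, rfl⟩

theorem T_le (h : IsQF Q B) : T Q B ≤ Iso Q := by
  rw [T, Subgroup.closure_le]
  rintro g ⟨v, hv, rfl⟩
  exact tv_mem h hv

/-- the additive closure of the nonsingular vectors perpendicular to a hyperbolic pair -/
def NS (Q : V → ZMod 2) (B : V →ₗ[ZMod 2] V →ₗ[ZMod 2] ZMod 2) (e f : V) : AddSubgroup V :=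
  AddSubgroup.closure {c | Q c = 1 ∧ B e c = 0 ∧ B f c = 0}

/-- Siegel elements: products of transvections fixing e and moving f by d. -/
theorem siegel (h : IsQF Q B) {e f d : V} (he : Q e = 0) (hef : B e f = 1) (hd : d ∈ NS Q B e f) :
    ∃ s ∈ T Q B, s e = e ∧ s f = f + d + Q d • e ∧
      ∀ x, B e x = 0 → B f x = 0 → s x = x + B x d • e := by
  suffices H : B e d = 0 ∧ B f d = 0 ∧ ∃ s ∈ T Q B, s e = e ∧ s f = f + d + Q d • e ∧
      ∀ x, B e x = 0 → B f x = 0 → s x = x + B x d • e from H.2.2
  refine AddSubgroup.closure_induction ?_ ?_ ?_ ?_ hd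
  · rintro c ⟨hc, hec, hfc⟩
    refine ⟨hec, hfc, tv B c * tv B (c + e), ?_, ?_, ?_, ?_⟩
    · refine mul_mem (tv_mem_T hc) (tv_mem_T ?_)
      rw [h.add, hc, he, h.symm, hec, add_zero, add_zero]
    · rw [LinearEquiv.mul_apply, tv_of_zero h (v := c + e) (by rw [map_add, hec, h.self, add_zero]),
        tv_of_zero h hec]
    · have h1 : B f (c + e) = 1 := by rw [map_add, hfc, h.symm f e, hef, zero_add]
      have h2 : B (f + (c + e)) c = 0 := by
        simp only [map_add, LinearMap.add_apply, hfc, h.self c, hec, add_zero]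
      rw [LinearEquiv.mul_apply, tv_of_one h h1, tv_of_zero h h2, hc, one_smul, add_assoc]
    · intro x hex hfx
      have hxe : B x e = 0 := by rw [h.symm]; exact hex
      rw [LinearEquiv.mul_apply]
      rcases z2 (B x c) with k | k
      · rw [tv_of_zero h (v := c + e) (by rw [map_add, k, hxe, add_zero]), tv_of_zero h k, k,
          zero_smul, add_zero]
      · have h3 : B (x + (c + e)) c = 1 := by
          simp only [map_add, LinearMap.add_apply, k, h.self c, hec, add_zero]
        rw [tv_of_one h (v := c + e) (by rw [map_add, k, hxe, add_zero]), tv_of_one h h3, k,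
          one_smul]
        rw [show x + (c + e) + c = x + e + (c + c) by abel, add_self', add_zero]
  · refine ⟨map_zero _, map_zero _, 1, one_mem _, rfl, ?_, ?_⟩
    · simp [h.zero]
    · intro x _ _
      simp
  · rintro c d _ _ ⟨hec, hfc, s, hs, hse, hsf, hsx⟩ ⟨hed, hfd, t, ht, hte, htf, htx⟩
    refine ⟨by rw [map_add, hec, hed, add_zero], by rw [map_add, hfc, hfd, add_zero],
      s * t, mul_mem hs ht, by rw [LinearEquiv.mul_apply, hte, hse], ?_, ?_⟩
    · rw [LinearEquiv.mul_apply, htf, map_add, map_add, map_smul, hse, hsf, hsx d hed hfd,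
        h.add c d, add_smul, add_smul, h.symm d c]
      abel
    · intro x hex hfx
      rw [LinearEquiv.mul_apply, htx x hex hfx, map_add, map_smul, hse, hsx x hex hfx, map_add,
        add_smul]
      abel
  · intro c _ hc
    rw [ZModModule.neg_eq_self]
    exact hc

/-- pick a vector with two prescribed values -/
theorem exists_pair_one (h : IsQF Q B) {u v : V} (hu : u ≠ 0) (hv : v ≠ 0) :
    ∃ z, B u z = 1 ∧ B v z = 1 := by
  have ex : ∀ {x : V}, x ≠ 0 → ∃ a, B x a = 1 := by
    intro x hx
    by_contra hc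
    push Not at hc
    refine hx (h.nd x fun w => ?_)
    rcases z2 (B x w) with e | e
    · exact e
    · exact absurd e (hc w)
  obtain ⟨a, ha⟩ := ex hu
  obtain ⟨b, hb⟩ := ex hv
  rcases z2 (B v a) with e | e
  · rcases z2 (B u b) with f | f
    · exact ⟨a + b, by rw [map_add, ha, f, add_zero], by rw [map_add, hb, e, zero_add]⟩
    · exact ⟨b, f, hb⟩
  · exact ⟨a, ha, e⟩

/-- a family of mutually orthogonal hyperbolic pairs -/
structure Pairs (Q : V → ZMod 2) (B : V →ₗ[ZMod 2] V →ₗ[ZMod 2] ZMod 2) {m : ℕ}
    (e f : Fin m → V) : Prop where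
  qe : ∀ i, Q (e i) = 0
  qf : ∀ i, Q (f i) = 0
  ee : ∀ i j, B (e i) (e j) = 0
  ff : ∀ i j, B (f i) (f j) = 0
  ef : ∀ i j, B (e i) (f j) = if i = j then 1 else 0

/-- an isometry can be corrected by transvections to fix the hyperbolic family -/
theorem fix_pairs (h : IsQF Q B) {m : ℕ} {e f : Fin m → V} (hp : Pairs Q B e f)
    (hns : ∀ k, ∀ d, B (e k) d = 0 → B (f k) d = 0 → d ∈ NS Q B (e k) (f k))
    (g : V ≃ₗ[ZMod 2] V) (hg : g ∈ Iso Q) :
    ∀ n ≤ m, ∃ s ∈ T Q B, ∀ i : Fin m, (i : ℕ) < n → s (g (e i)) = e i ∧ s (g (f i)) = f i := by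
  intro n hn
  induction n with
  | zero => exact ⟨1, one_mem _, fun i hi => absurd hi (Nat.not_lt_zero _)⟩
  | succ n ih =>
    obtain ⟨s, hs, hsi⟩ := ih (by omega)
    let k : Fin m := ⟨n, by omega⟩
    have hsg : s * g ∈ Iso Q := mul_mem (T_le h hs) hg
    have hB : ∀ x y, B (s (g x)) (s (g y)) = B x y := fun x y => iso_B h hsg x y
    have hne : ∀ i : Fin m, (i : ℕ) < n → i ≠ k := by
      intro i hi hik; rw [hik] at hi; simp only [k] at hi; omega
    -- first move the image of e k
    have step1 : ∃ a ∈ T Q B, a (s (g (e k))) = e k ∧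
        ∀ i : Fin m, (i : ℕ) < n → a (e i) = e i ∧ a (f i) = f i := by
      set u := s (g (e k))
      have hQu : Q u = 0 := by
        show Q ((s * g) (e k)) = 0
        rw [hsg, hp.qe]
      have hue : ∀ i : Fin m, (i : ℕ) < n → B u (e i) = 0 ∧ B u (f i) = 0 := by
        intro i hi
        obtain ⟨h1, h2⟩ := hsi i hi
        constructor
        · conv_lhs => rw [← h1]
          rw [hB, hp.ee]
        · conv_lhs => rw [← h2]
          rw [hB, hp.ef, if_neg (hne i hi).symm]
      have hke : ∀ i : Fin m, (i : ℕ) < n → B (e k) (e i) = 0 ∧ B (e k) (f i) = 0 := by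
        intro i hi
        exact ⟨hp.ee _ _, by rw [hp.ef, if_neg (hne i hi).symm]⟩
      -- transvection between two singular vectors with product one
      have move : ∀ x y : V, Q x = 0 → Q y = 0 → B x y = 1 →
          (∀ i : Fin m, (i : ℕ) < n → B x (e i) = 0 ∧ B x (f i) = 0) →
          (∀ i : Fin m, (i : ℕ) < n → B y (e i) = 0 ∧ B y (f i) = 0) →
          ∃ a ∈ T Q B, a x = y ∧ ∀ i : Fin m, (i : ℕ) < n → a (e i) = e i ∧ a (f i) = f i := by
        intro x y hx hy hxy hxi hyi
        refine ⟨tv B (x + y), tv_mem_T (by rw [h.add, hx, hy, hxy]; decide), ?_, ?_⟩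
        · rw [tv_of_one h (by rw [map_add, h.self, hxy, zero_add]), ← add_assoc, add_self',
            zero_add]
        · intro i hi
          constructor
          · apply tv_of_zero h
            rw [map_add, h.symm _ x, h.symm _ y, (hxi i hi).1, (hyi i hi).1, add_zero]
          · apply tv_of_zero h
            rw [map_add, h.symm _ x, h.symm _ y, (hxi i hi).2, (hyi i hi).2, add_zero]
      by_cases hueq : u = e k
      · exact ⟨1, one_mem _, hueq, fun i _ => ⟨rfl, rfl⟩⟩
      rcases z2 (B u (e k)) with hb | hb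
      · have hu0 : u ≠ 0 := by
          intro h0
          have : e k = 0 := (s * g).injective (h0.trans (map_zero (s * g)).symm)
          have h2 := hp.ef k k
          rw [this, map_zero, LinearMap.zero_apply, if_pos rfl] at h2
          exact zero_ne_one h2
        have he0 : e k ≠ 0 := by
          intro h0
          have h2 := hp.ef k k
          rw [h0, map_zero, LinearMap.zero_apply, if_pos rfl] at h2
          exact zero_ne_one h2
        obtain ⟨z0, hz0u, hz0e⟩ := exists_pair_one h hu0 he0
        -- project onto the perp of the fixed pairs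
        let S : Finset (Fin m) := Finset.univ.filter fun i : Fin m => (i : ℕ) < n
        let z1 : V := z0 + ∑ i ∈ S, (B z0 (f i) • e i + B z0 (e i) • f i)
        have hperp : ∀ w : V, (∀ i : Fin m, (i : ℕ) < n → B w (e i) = 0 ∧ B w (f i) = 0) →
            B w z1 = B w z0 := by
          intro w hw
          simp only [z1, map_add, map_sum, map_smul]
          rw [Finset.sum_eq_zero, add_zero]
          intro i hi
          simp only [S, Finset.mem_filter, Finset.mem_univ, true_and] at hi
          rw [(hw i hi).1, (hw i hi).2, smul_zero, smul_zero, add_zero]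
        have hz1 : ∀ i : Fin m, (i : ℕ) < n → B z1 (e i) = 0 ∧ B z1 (f i) = 0 := by
          intro i hi
          have hiS : i ∈ S := by simp [S, hi]
          constructor
          · simp only [z1, map_add, map_sum, map_smul, LinearMap.add_apply, LinearMap.coe_sum,
              Finset.sum_apply, LinearMap.smul_apply, hp.ee, smul_zero, zero_add,
              h.symm (f _) (e i), hp.ef]
            rw [Finset.sum_eq_single i]
            · rw [if_pos rfl, smul_eq_mul, mul_one]; exact ZModModule.add_self _
            · intro j _ hj; rw [if_neg (Ne.symm hj), smul_zero]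
            · intro hh; exact absurd hiS hh
          · simp only [z1, map_add, map_sum, map_smul, LinearMap.add_apply, LinearMap.coe_sum,
              Finset.sum_apply, LinearMap.smul_apply, hp.ff, smul_zero, add_zero, hp.ef]
            rw [Finset.sum_eq_single i]
            · rw [if_pos rfl, smul_eq_mul, mul_one]; exact ZModModule.add_self _
            · intro j _ hj; rw [if_neg hj, smul_zero]
            · intro hh; exact absurd hiS hh
        have hzu : B u z1 = 1 := by rw [hperp u hue, hz0u]
        have hze : B (e k) z1 = 1 := by rw [hperp _ hke, hz0e]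
        obtain ⟨z, hQz, hzu', hze', hzi⟩ : ∃ z, Q z = 0 ∧ B u z = 1 ∧ B (e k) z = 1 ∧
            ∀ i : Fin m, (i : ℕ) < n → B z (e i) = 0 ∧ B z (f i) = 0 := by
          rcases z2 (Q z1) with q | q
          · exact ⟨z1, q, hzu, hze, hz1⟩
          · refine ⟨z1 + u, ?_, ?_, ?_, ?_⟩
            · rw [h.add, q, hQu, h.symm, hzu]; decide
            · rw [map_add, hzu, h.self, add_zero]
            · rw [map_add, hze, h.symm (e k) u, hb, add_zero]
            · intro i hi
              simp only [map_add, LinearMap.add_apply, (hue i hi).1, (hue i hi).2, (hz1 i hi).1,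
                (hz1 i hi).2, add_zero, and_self]
        obtain ⟨a1, ha1, ha1u, ha1i⟩ := move u z hQu hQz hzu' hue hzi
        obtain ⟨a2, ha2, ha2z, ha2i⟩ := move z (e k) hQz (hp.qe k) (by rw [h.symm]; exact hze') hzi hke
        refine ⟨a2 * a1, mul_mem ha2 ha1, by rw [LinearEquiv.mul_apply, ha1u, ha2z], fun i hi => ?_⟩
        rw [LinearEquiv.mul_apply, LinearEquiv.mul_apply, (ha1i i hi).1, (ha1i i hi).2]
        exact ha2i i hi
      · exact move u (e k) hQu (hp.qe k) hb hue hke
    obtain ⟨a, ha, hau, hai⟩ := step1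
    set w := a (s (g (f k)))
    have hasg : a * (s * g) ∈ Iso Q := mul_mem (T_le h ha) hsg
    have hB2 : ∀ x y, B (a (s (g x))) (a (s (g y))) = B x y := fun x y => iso_B h hasg x y
    have hew : B (e k) w = 1 := by
      conv_lhs => rw [← hau]
      rw [hB2, hp.ef, if_pos rfl]
    have hQw : Q w = 0 := by
      show Q ((a * (s * g)) (f k)) = 0
      rw [hasg, hp.qf]
    set d := w + f k + B (f k) w • e k
    have hkf : B (e k) (f k) = 1 := by rw [hp.ef, if_pos rfl]
    have hde : B (e k) d = 0 := by
      simp only [d, map_add, map_smul, hew, hkf, h.self, smul_zero, add_zero]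
      decide
    have hdf : B (f k) d = 0 := by
      simp only [d, map_add, map_smul, h.self, add_zero, h.symm (f k) (e k), hkf, smul_eq_mul,
        mul_one]
      exact ZModModule.add_self _
    have hwd : w = f k + d + B (f k) w • e k := by
      simp only [d]
      rw [show f k + (w + f k + B (f k) w • e k) + B (f k) w • e k =
        w + ((f k + f k) + (B (f k) w • e k + B (f k) w • e k)) by abel, add_self', add_self',
        add_zero, add_zero]
    have hQd : Q d = B (f k) w := by
      have h1 : Q w = Q d + B (f k) w := by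
        conv_lhs => rw [hwd]
        rw [h.add, h.add, hp.qf, hdf, map_add, LinearMap.add_apply, map_smul, map_smul,
          h.symm d (e k), hde, h.symm (f k) (e k), hkf, smul_zero, zero_add, add_zero, add_zero]
        rcases z2 (B (f k) w) with q | q <;> simp [q, h.zero, hp.qe]
      rw [hQw] at h1
      rcases z2 (B (f k) w) with q | q <;> rw [q] at h1 ⊢ <;> rcases z2 (Q d) with r | r <;>
        rw [r] at h1 ⊢ <;> revert h1 <;> decide
    obtain ⟨c, hc, hce, hcf, hcx⟩ := siegel h (hp.qe k) hkf (hns k d hde hdf)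
    have hci : ∀ i : Fin m, (i : ℕ) < n → c⁻¹ (e i) = e i ∧ c⁻¹ (f i) = f i := by
      intro i hi
      have hik := hne i hi
      have hwi : B (e i) w = 0 ∧ B (f i) w = 0 := by
        obtain ⟨h1, h2⟩ := hsi i hi
        obtain ⟨h3, h4⟩ := hai i hi
        have e1 : a (s (g (e i))) = e i := by rw [h1, h3]
        have e2 : a (s (g (f i))) = f i := by rw [h2, h4]
        constructor
        · conv_lhs => rw [← e1]
          rw [hB2, hp.ef, if_neg hik]
        · conv_lhs => rw [← e2]
          rw [hB2, hp.ff]
      have hef : B (e i) (f k) = 0 := by rw [hp.ef, if_neg hik]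
      have hfe : B (f i) (e k) = 0 := by rw [h.symm, hp.ef, if_neg hik.symm]
      have h5 : c (e i) = e i := by
        rw [hcx _ (hp.ee _ _) (by rw [h.symm, hef])]
        simp only [d, map_add, map_smul, hwi.1, hef, hp.ee, smul_zero, add_zero, zero_smul]
      have h6 : c (f i) = f i := by
        rw [hcx _ (by rw [h.symm, hfe]) (hp.ff _ _)]
        simp only [d, map_add, map_smul, hwi.2, hfe, hp.ff, smul_zero, add_zero, zero_smul]
      exact ⟨c.symm_apply_eq.2 h5.symm, c.symm_apply_eq.2 h6.symm⟩
    refine ⟨c⁻¹ * a * s, mul_mem (mul_mem (inv_mem hc) ha) hs, fun i hi => ?_⟩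
    rcases Nat.lt_succ_iff_lt_or_eq.1 hi with hi | hi
    · simp only [LinearEquiv.mul_apply, (hsi i hi).1, (hsi i hi).2, (hai i hi).1, (hai i hi).2]
      exact hci i hi
    · have : i = k := Fin.ext hi
      subst this
      simp only [LinearEquiv.mul_apply]
      constructor
      · rw [hau]; exact c.symm_apply_eq.2 hce.symm
      · apply c.symm_apply_eq.2
        rw [hcf, hQd]
        exact hwd

/-- an anisotropic plane perpendicular to e and f forces the nonsingular vectors to span -/
theorem ns_of_plane (h : IsQF Q B) {e f a b : V} (ha : Q a = 1) (hb : Q b = 1) (hab : B a b = 1)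
    (hea : B e a = 0) (hfa : B f a = 0) (heb : B e b = 0) (hfb : B f b = 0)
    (d : V) (hed : B e d = 0) (hfd : B f d = 0) : d ∈ NS Q B e f := by
  have mem : ∀ {c : V}, Q c = 1 → B e c = 0 → B f c = 0 → c ∈ NS Q B e f :=
    fun h1 h2 h3 => AddSubgroup.subset_closure ⟨h1, h2, h3⟩
  rcases z2 (Q d) with q | q
  · rcases z2 (B d a) with p | p
    · have : d = (d + a) + a := by rw [add_assoc, add_self', add_zero]
      rw [this]
      exact add_mem (mem (by rw [h.add, q, ha, p]; decide) (by rw [map_add, hed, hea, add_zero])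
        (by rw [map_add, hfd, hfa, add_zero])) (mem ha hea hfa)
    · rcases z2 (B d b) with r | r
      · have : d = (d + b) + b := by rw [add_assoc, add_self', add_zero]
        rw [this]
        exact add_mem (mem (by rw [h.add, q, hb, r]; decide) (by rw [map_add, hed, heb, add_zero])
          (by rw [map_add, hfd, hfb, add_zero])) (mem hb heb hfb)
      · have : d = (d + (a + b)) + (a + b) := by rw [add_assoc, add_self', add_zero]
        rw [this]
        have hqab : Q (a + b) = 1 := by rw [h.add, ha, hb, hab]; decide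
        refine add_mem (mem ?_ ?_ ?_) (mem hqab ?_ ?_)
        · rw [h.add, q, hqab, map_add, p, r]; decide
        · rw [map_add, map_add, hed, hea, heb, add_zero, add_zero]
        · rw [map_add, map_add, hfd, hfa, hfb, add_zero, add_zero]
        · rw [map_add, hea, heb, add_zero]
        · rw [map_add, hfa, hfb, add_zero]
  · exact mem q hed hfd

/-- transitivity on nonsingular vectors -/
theorem conj_nonsingular [Module.Finite (ZMod 2) V] (h : IsQF Q B)
    (hdim : 5 ≤ finrank (ZMod 2) V) {u v : V} (hu : Q u = 1) (hv : Q v = 1) :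
    ∃ s ∈ T Q B, s u = v := by
  have move : ∀ x y : V, Q x = 1 → Q y = 1 → B x y = 1 → ∃ s ∈ T Q B, s x = y := by
    intro x y hx hy hxy
    refine ⟨tv B (x + y), tv_mem_T (by rw [h.add, hx, hy, hxy]; decide), ?_⟩
    rw [tv_of_one h (by rw [map_add, h.self, hxy, zero_add]), ← add_assoc, add_self', zero_add]
  rcases z2 (B u v) with e | e
  · obtain ⟨z0, hz0u, hz0v⟩ := exists_pair_one h (h.ne_zero hu) (h.ne_zero hv)
    obtain ⟨z, hQz, hzu, hzv⟩ : ∃ z, Q z = 1 ∧ B u z = 1 ∧ B v z = 1 := by
      rcases z2 (Q z0) with q | q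
      · by_contra hc
        push Not at hc
        -- on U = {u,v}-perp the form is linear, so U is totally isotropic
        let φ : V →ₗ[ZMod 2] ZMod 2 × ZMod 2 := (B u).prod (B v)
        let U : Submodule (ZMod 2) V := LinearMap.ker φ
        have hU : ∀ y ∈ U, Q y + B z0 y = 0 := by
          intro y hy
          have hy' : B u y = 0 ∧ B v y = 0 := by simpa [U, φ, Prod.ext_iff] using hy
          rcases z2 (Q y + B z0 y) with r | r
          · exact r
          · exfalso
            refine hc (z0 + y) ?_ ?_ ?_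
            · rw [h.add, q, zero_add, r]
            · rw [map_add, hz0u, hy'.1, add_zero]
            · rw [map_add, hz0v, hy'.2, add_zero]
        have hiso : ∀ x ∈ U, ∀ y ∈ U, B x y = 0 := by
          intro x hx y hy
          have h1 := hU _ (add_mem hx hy)
          rw [h.add, map_add] at h1
          have h2 := hU x hx
          have h3 := hU y hy
          linear_combination h1 - h2 - h3
        have hinj : Function.Injective B := by
          rw [injective_iff_map_eq_zero]
          intro x hx
          exact h.nd x fun w => by rw [hx]; rfl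
        have hle : U.map B ≤ U.dualAnnihilator := by
          rintro _ ⟨x, hx, rfl⟩
          rw [Submodule.mem_dualAnnihilator]
          exact fun y hy => hiso x hx y hy
        have h1 := Submodule.finrank_mono hle
        rw [← (Submodule.equivMapOfInjective B hinj U).finrank_eq] at h1
        have h2 := Subspace.finrank_add_finrank_dualAnnihilator_eq U
        have h3 := LinearMap.finrank_range_add_finrank_ker φ
        have h4 : finrank (ZMod 2) (LinearMap.range φ) ≤ 2 := by
          refine (Submodule.finrank_le _).trans_eq ?_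
          simp
        change _ + finrank (ZMod 2) U = _ at h3
        have h2' : finrank (ZMod 2) U + finrank (ZMod 2) U.dualAnnihilator = finrank (ZMod 2) V :=
          h2
        linarith
      · exact ⟨z0, q, hz0u, hz0v⟩
    obtain ⟨a, ha, hau⟩ := move u z hu hQz hzu
    obtain ⟨b, hb, hbz⟩ := move z v hQz hv (by rw [h.symm]; exact hzv)
    exact ⟨b * a, mul_mem hb ha, by rw [LinearEquiv.mul_apply, hau, hbz]⟩
  · exact move u v hu hv e

/-- transfer to any group faithfully realised as the isometry group -/
theorem isClass [Module.Finite (ZMod 2) V] (h : IsQF Q B) (hdim : 5 ≤ finrank (ZMod 2) V)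
    (hgen : Iso Q ≤ T Q B) (hne : ∃ v, Q v = 1)
    {G : Type*} [Group G] (ρ : G →* (V ≃ₗ[ZMod 2] V)) (hρ : Function.Injective ρ)
    (hrange : ρ.range = Iso Q) :
    Cfsg.IsThreeTranspositionClass
      {g : G | finrank (ZMod 2) (LinearMap.range ((ρ g).toLinearMap - LinearMap.id)) = 1} := by
  have hiso : ∀ g, ρ g ∈ Iso Q := fun g => hrange ▸ ⟨g, rfl⟩
  have hlift : ∀ s ∈ Iso Q, ∃ g, ρ g = s := fun s hs => by rwa [← hrange, MonoidHom.mem_range] at hs
  have hmem : ∀ g : G, finrank (ZMod 2) (LinearMap.range ((ρ g).toLinearMap - LinearMap.id)) = 1 →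
      ∃ v, Q v = 1 ∧ ρ g = tv B v := fun g hg => eq_tv_of_rank_one h (hiso g) hg
  have hmem' : ∀ g : G, ∀ v, Q v = 1 → ρ g = tv B v →
      finrank (ZMod 2) (LinearMap.range ((ρ g).toLinearMap - LinearMap.id)) = 1 := by
    intro g v hv hg
    rw [hg]
    exact rank_tv h (h.ne_zero hv)
  refine ⟨⟨?_, ?_⟩, ?_, ?_⟩
  · intro g hg
    obtain ⟨v, hv, hgv⟩ := hmem g hg
    rw [← orderOf_injective ρ hρ, hgv, orderOf_eq_prime_iff]
    exact ⟨by rw [pow_two, tv_mul_self h], tv_ne_one h (h.ne_zero hv)⟩
  · intro g hg g' hg'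
    obtain ⟨v, hv, hgv⟩ := hmem g hg
    obtain ⟨w, hw, hgw⟩ := hmem g' hg'
    rcases tv_three h hv hw with r | r
    · left; apply hρ; rw [map_pow, map_mul, hgv, hgw, map_one, r]
    · right; apply hρ; rw [map_pow, map_mul, hgv, hgw, map_one, r]
  · obtain ⟨v, hv⟩ := hne
    obtain ⟨d, hd⟩ := hlift _ (tv_mem h hv)
    refine ⟨d, hmem' d v hv hd, ?_⟩
    ext g
    rw [Set.mem_ofPred_eq, conjugatesOf, Set.mem_ofPred_eq, isConj_iff]
    constructor
    · intro hg
      obtain ⟨w, hw, hgw⟩ := hmem g hg
      obtain ⟨s, hs, hsv⟩ := conj_nonsingular h hdim hv hw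
      obtain ⟨c, hc⟩ := hlift s (T_le h hs)
      refine ⟨c, hρ ?_⟩
      rw [map_mul, map_mul, map_inv, hc, hd, hgw, conj_tv h (T_le h hs), hsv]
    · rintro ⟨c, rfl⟩
      refine hmem' _ (ρ c v) (by rw [hiso c, hv]) ?_
      rw [map_mul, map_mul, map_inv, hd, conj_tv h (hiso c)]
  · rw [eq_top_iff]
    intro g _
    have hg : ρ g ∈ T Q B := hgen (hiso g)
    have hle : T Q B ≤ (Subgroup.closure {g : G | finrank (ZMod 2)
        (LinearMap.range ((ρ g).toLinearMap - LinearMap.id)) = 1}).map ρ := by
      rw [T, Subgroup.closure_le]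
      rintro _ ⟨v, hv, rfl⟩
      obtain ⟨d, hd⟩ := hlift _ (tv_mem h hv)
      exact ⟨d, Subgroup.subset_closure (hmem' d v hv hd), hd⟩
    obtain ⟨x, hx, hxg⟩ := hle hg
    rwa [hρ hxg] at hx

end Cfsg.Agent.TTClass.OrthF2
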