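import Cfsg.Agent.TTClass.OrthF2
import Cfsg.Prelude.Def_Classical

/-!
The models Σ x_i y_i and Σ x_i y_i + z₁² + z₁ z₂ + z₂² for `OrthF2`.
-/

set_option autoImplicit false

namespace Cfsg.Agent.TTClass.OrthModels

open Cfsg.Agent.TTClass.OrthF2 Module
open scoped Matrix

section bridge

variable {ι : Type} [Fintype ι] [DecidableEq ι] (Q : (ι → ZMod 2) → ZMod 2)

/-- the action of the isometry group on column vectors -/
noncomputable def rho : ↥(Cfsg.isometryGroup (ZMod 2) Q) →* ((ι → ZMod 2) ≃ₗ[ZMod 2] (ι → ZMod 2)) :=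
  ((LinearMap.GeneralLinearGroup.generalLinearEquiv (ZMod 2) (ι → ZMod 2)).toMonoidHom.comp
    (Matrix.GeneralLinearGroup.toLin (n := ι) (R := ZMod 2)).toMonoidHom).comp
    (Cfsg.isometryGroup (ZMod 2) Q).subtype

theorem rho_apply (g : ↥(Cfsg.isometryGroup (ZMod 2) Q)) (x : ι → ZMod 2) :
    rho Q g x = ((g : GL ι (ZMod 2)) : Matrix ι ι (ZMod 2)) *ᵥ x := rfl

theorem rho_injective : Function.Injective (rho Q) := by
  intro g g' hg
  have h1 := (LinearMap.GeneralLinearGroup.generalLinearEquiv (ZMod 2) (ι → ZMod 2)).injective hg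
  exact Subtype.ext ((Matrix.GeneralLinearGroup.toLin (n := ι) (R := ZMod 2)).injective h1)

theorem rho_range : (rho Q).range = Iso Q := by
  ext s
  constructor
  · rintro ⟨g, rfl⟩ x
    rw [rho_apply]
    exact g.2 x x
  · intro hs
    let u : GL ι (ZMod 2) := (Matrix.GeneralLinearGroup.toLin (n := ι) (R := ZMod 2)).symm
      ((LinearMap.GeneralLinearGroup.generalLinearEquiv (ZMod 2) (ι → ZMod 2)).symm s)
    have hu : (LinearMap.GeneralLinearGroup.generalLinearEquiv (ZMod 2) (ι → ZMod 2))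
        ((Matrix.GeneralLinearGroup.toLin (n := ι) (R := ZMod 2)) u) = s := by simp [u]
    refine ⟨⟨u, ?_⟩, hu⟩
    intro x y
    show Q ((u : Matrix ι ι (ZMod 2)) *ᵥ x) = Q x
    have := hs x
    rw [← hu] at this
    exact this

theorem rank_eq (g : ↥(Cfsg.isometryGroup (ZMod 2) Q)) :
    (((g : GL ι (ZMod 2)) : Matrix ι ι (ZMod 2)) - 1).rank =
      finrank (ZMod 2) (LinearMap.range ((rho Q g).toLinearMap - LinearMap.id)) := by
  have : (((g : GL ι (ZMod 2)) : Matrix ι ι (ZMod 2)) - 1).mulVecLin =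
      (rho Q g).toLinearMap - LinearMap.id := by
    refine LinearMap.ext fun x => ?_
    show _ *ᵥ x = rho Q g x - x
    rw [rho_apply, Matrix.sub_mulVec, Matrix.one_mulVec]
  rw [Matrix.rank, this]

theorem model_class {B : (ι → ZMod 2) →ₗ[ZMod 2] (ι → ZMod 2) →ₗ[ZMod 2] ZMod 2} (h : IsQF Q B)
    (hdim : 5 ≤ Fintype.card ι) (hgen : Iso Q ≤ T Q B) (hne : ∃ v, Q v = 1) :
    Cfsg.IsThreeTranspositionClass {g : ↥(Cfsg.isometryGroup (ZMod 2) Q) |
      (((g : GL ι (ZMod 2)) : Matrix ι ι (ZMod 2)) - 1).rank = 1} := by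
  have := isClass h (by simpa using hdim) hgen hne (rho Q) (rho_injective Q) (rho_range Q)
  simpa only [rank_eq] using this

end bridge

/-- an isometry fixing a spanning family is trivial -/
theorem eq_one_of_basis {ι : Type} [Fintype ι] [DecidableEq ι]
    (s : (ι → ZMod 2) ≃ₗ[ZMod 2] (ι → ZMod 2))
    (hs : ∀ i, s (Pi.single i 1) = Pi.single i 1) : s = 1 := by
  apply LinearEquiv.toLinearMap_injective
  exact (Pi.basisFun (ZMod 2) ι).ext fun i => by simp [hs]

section plus

variable (m : ℕ)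

/-- the polar form of the plus model -/
def bPlus : (Fin m ⊕ Fin m → ZMod 2) →ₗ[ZMod 2] (Fin m ⊕ Fin m → ZMod 2) →ₗ[ZMod 2] ZMod 2 :=
  LinearMap.mk₂ (ZMod 2) (fun u v => ∑ i, (u (.inl i) * v (.inr i) + u (.inr i) * v (.inl i)))
    (fun a b c => by
      simp only [Pi.add_apply, ← Finset.sum_add_distrib]; exact Finset.sum_congr rfl fun i _ => by ring)
    (fun r a b => by
      simp only [Pi.smul_apply, smul_eq_mul, Finset.mul_sum]; exact Finset.sum_congr rfl fun i _ => by ring)
    (fun a b c => by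
      simp only [Pi.add_apply, ← Finset.sum_add_distrib]; exact Finset.sum_congr rfl fun i _ => by ring)
    (fun r a b => by
      simp only [Pi.smul_apply, smul_eq_mul, Finset.mul_sum]; exact Finset.sum_congr rfl fun i _ => by ring)

theorem qf_plus : IsQF (Cfsg.quadFormPlus m (ZMod 2)) (bPlus m) where
  add u v := by
    simp only [Cfsg.quadFormPlus, bPlus, LinearMap.mk₂_apply, Pi.add_apply, ← Finset.sum_add_distrib]
    exact Finset.sum_congr rfl fun i _ => by ring
  nd v hv := by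
    funext x
    cases x with
    | inl i => simpa [bPlus, Pi.single_apply] using hv (Pi.single (.inr i) 1)
    | inr i => simpa [bPlus, Pi.single_apply] using hv (Pi.single (.inl i) 1)

theorem pairs_plus : Pairs (Cfsg.quadFormPlus m (ZMod 2)) (bPlus m)
    (fun i => Pi.single (Sum.inl i) 1) (fun i => Pi.single (Sum.inr i) 1) where
  qe i := by simp [Cfsg.quadFormPlus]
  qf i := by simp [Cfsg.quadFormPlus]
  ee i j := by simp [bPlus]
  ff i j := by simp [bPlus]
  ef i j := by simp [bPlus, Pi.single_apply, eq_comm]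

theorem gen_plus (hm : 3 ≤ m) : Iso (Cfsg.quadFormPlus m (ZMod 2)) ≤
    T (Cfsg.quadFormPlus m (ZMod 2)) (bPlus m) := by
  intro g hg
  have hp := pairs_plus m
  have h := qf_plus m
  have hns : ∀ k, ∀ d, bPlus m (Pi.single (Sum.inl k) 1) d = 0 → bPlus m (Pi.single (Sum.inr k) 1) d = 0 →
      d ∈ NS (Cfsg.quadFormPlus m (ZMod 2)) (bPlus m) (Pi.single (Sum.inl k) 1) (Pi.single (Sum.inr k) 1) := by
    intro k d
    obtain ⟨j, hj⟩ : ∃ j : Fin m, j ≠ k := Fintype.exists_ne_of_one_lt_card (by simp; omega) k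
    obtain ⟨l, hlj, hlk⟩ : ∃ l : Fin m, l ≠ j ∧ l ≠ k := by
      by_contra hc
      push Not at hc
      have : (Finset.univ : Finset (Fin m)) ⊆ {j, k} := fun x _ => by
        by_cases hx : x = j
        · simp [hx]
        · simp [hc x hx]
      have := (Finset.card_le_card this).trans Finset.card_le_two
      rw [Finset.card_univ, Fintype.card_fin] at this
      omega
    refine ns_of_plane h (a := Pi.single (Sum.inl j) 1 + Pi.single (Sum.inr j) 1)
      (b := Pi.single (Sum.inl j) 1 + (Pi.single (Sum.inl l) 1 + Pi.single (Sum.inr l) 1))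
      ?_ ?_ ?_ ?_ ?_ ?_ ?_ d
    · simp [Cfsg.quadFormPlus, Pi.single_apply]
    · simp [Cfsg.quadFormPlus, Pi.single_apply, hlj.symm, hlj, add_mul]
    · simp [bPlus, Pi.single_apply, hlj.symm, hlj, add_mul]
    all_goals simp [bPlus, Pi.single_apply, hj.symm, hlk.symm, hj, hlk]
  obtain ⟨s, hs, hsi⟩ := fix_pairs h hp hns g hg m le_rfl
  have : s * g = 1 := eq_one_of_basis _ fun x => by
    rcases x with i | i
    · exact (hsi i i.2).1
    · exact (hsi i i.2).2
  rw [eq_inv_of_mul_eq_one_right this]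
  exact inv_mem hs

theorem plus_class (hm : 3 ≤ m) :
    Cfsg.IsThreeTranspositionClass {g : ↥(Cfsg.isometryGroup (ZMod 2) (Cfsg.quadFormPlus m (ZMod 2))) |
      (((g : GL (Fin m ⊕ Fin m) (ZMod 2)) : Matrix (Fin m ⊕ Fin m) (Fin m ⊕ Fin m) (ZMod 2)) - 1).rank = 1} := by
  refine model_class _ (qf_plus m) (by simp; omega) (gen_plus m hm) ?_
  exact ⟨Pi.single (Sum.inl ⟨0, by omega⟩) 1 + Pi.single (Sum.inr ⟨0, by omega⟩) 1,
    by simp [Cfsg.quadFormPlus, Pi.single_apply]⟩

end plus

section minus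

variable (m : ℕ)

/-- the polar form of the minus model -/
def bMinus : ((Fin m ⊕ Fin m) ⊕ Fin 2 → ZMod 2) →ₗ[ZMod 2]
    ((Fin m ⊕ Fin m) ⊕ Fin 2 → ZMod 2) →ₗ[ZMod 2] ZMod 2 :=
  LinearMap.mk₂ (ZMod 2) (fun u v =>
      (∑ i, (u (.inl (.inl i)) * v (.inl (.inr i)) + u (.inl (.inr i)) * v (.inl (.inl i))))
        + (u (.inr 0) * v (.inr 1) + u (.inr 1) * v (.inr 0)))
    (fun a b c => by
      simp only [Pi.add_apply, add_mul, Finset.sum_add_distrib]; ring)
    (fun r a b => by
      simp only [Pi.smul_apply, smul_eq_mul, mul_add, Finset.mul_sum, mul_assoc])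
    (fun a b c => by
      simp only [Pi.add_apply, mul_add, Finset.sum_add_distrib]; ring)
    (fun r a b => by
      simp only [Pi.smul_apply, smul_eq_mul, mul_add, Finset.mul_sum, mul_left_comm _ r _])

theorem qf_minus : IsQF (Cfsg.quadFormMinus m (ZMod 2) 1 1) (bMinus m) where
  add u v := by
    simp only [Cfsg.quadFormMinus, bMinus, LinearMap.mk₂_apply, Pi.add_apply, add_mul, mul_add,
      Finset.sum_add_distrib, CharTwo.add_sq, one_mul]
    rw [Finset.sum_congr rfl fun i _ => mul_comm (u (Sum.inl (Sum.inr i))) (v (Sum.inl (Sum.inl i)))]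
    ring
  nd v hv := by
    funext x
    rcases x with (i | i) | i
    · simpa [bMinus, Pi.single_apply] using hv (Pi.single (.inl (.inr i)) 1)
    · simpa [bMinus, Pi.single_apply] using hv (Pi.single (.inl (.inl i)) 1)
    · fin_cases i
      · simpa [bMinus, Pi.single_apply] using hv (Pi.single (.inr 1) 1)
      · simpa [bMinus, Pi.single_apply] using hv (Pi.single (.inr 0) 1)

theorem pairs_minus : Pairs (Cfsg.quadFormMinus m (ZMod 2) 1 1) (bMinus m)
    (fun i => Pi.single (Sum.inl (Sum.inl i)) 1) (fun i => Pi.single (Sum.inl (Sum.inr i)) 1) where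
  qe i := by simp [Cfsg.quadFormMinus]
  qf i := by simp [Cfsg.quadFormMinus]
  ee i j := by simp [bMinus]
  ff i j := by simp [bMinus]
  ef i j := by simp [bMinus, Pi.single_apply, eq_comm]

theorem gen_minus : Iso (Cfsg.quadFormMinus m (ZMod 2) 1 1) ≤
    T (Cfsg.quadFormMinus m (ZMod 2) 1 1) (bMinus m) := by
  intro g hg
  have h := qf_minus m
  set Q := Cfsg.quadFormMinus m (ZMod 2) 1 1 with hQdef
  set B := bMinus m with hBdef
  set a : (Fin m ⊕ Fin m) ⊕ Fin 2 → ZMod 2 := Pi.single (Sum.inr 0) 1 with hadef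
  set b : (Fin m ⊕ Fin m) ⊕ Fin 2 → ZMod 2 := Pi.single (Sum.inr 1) 1 with hbdef
  have ha : Q a = 1 := by simp [hQdef, hadef, Cfsg.quadFormMinus]
  have hb : Q b = 1 := by simp [hQdef, hbdef, Cfsg.quadFormMinus]
  have hab : B a b = 1 := by simp [hBdef, hadef, hbdef, bMinus]
  have hea : ∀ k, B (Pi.single (Sum.inl k) 1) a = 0 := by
    intro k; rcases k with k | k <;> simp [hBdef, hadef, bMinus]
  have heb : ∀ k, B (Pi.single (Sum.inl k) 1) b = 0 := by
    intro k; rcases k with k | k <;> simp [hBdef, hbdef, bMinus]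
  obtain ⟨s, hs, hsi⟩ := fix_pairs h (pairs_minus m)
    (fun k d => ns_of_plane h ha hb hab (hea _) (hea _) (heb _) (heb _) d) g hg m le_rfl
  have hfix : ∀ x, (s * g) (Pi.single (Sum.inl x) 1) = Pi.single (Sum.inl x) 1 := by
    rintro (i | i)
    · exact (hsi i i.2).1
    · exact (hsi i i.2).2
  have hsg : s * g ∈ Iso Q := mul_mem (T_le h hs) hg
  -- an isometry fixing all pairs maps the plane to itself
  have hplane : ∀ k ∈ Iso Q, (∀ x, k (Pi.single (Sum.inl x) 1) = Pi.single (Sum.inl x) 1) →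
      ∀ v, (∀ x, B (Pi.single (Sum.inl x) 1) v = 0) → Q v = 1 →
        k v = a ∨ k v = b ∨ k v = a + b := by
    intro k hk hkx v hv hQv
    have h1 : ∀ x, B (Pi.single (Sum.inl x) 1) (k v) = 0 := by
      intro x; rw [← hkx x, iso_B h hk, hv]
    have hQk : Q (k v) = 1 := by rw [hk, hQv]
    have h2 : k v = (k v (Sum.inr 0)) • a + (k v (Sum.inr 1)) • b := by
      funext y
      rcases y with (i | i) | i
      · have := h1 (.inr i)
        simp [hBdef, bMinus, Pi.single_apply] at this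
        simp [hadef, hbdef, this]
      · have := h1 (.inl i)
        simp [hBdef, bMinus, Pi.single_apply] at this
        simp [hadef, hbdef, this]
      · fin_cases i <;> simp [hadef, hbdef]
    rcases z2 (k v (Sum.inr 0)) with p | p <;> rcases z2 (k v (Sum.inr 1)) with r | r <;>
      rw [p, r] at h2 <;> simp only [zero_smul, one_smul, zero_add, add_zero] at h2
    · rw [h2, h.zero] at hQk; exact absurd hQk zero_ne_one
    · exact Or.inr (Or.inl h2)
    · exact Or.inl h2
    · exact Or.inr (Or.inr h2)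
  have hBba : B b a = 1 := by rw [h.symm, hab]
  have hqab : Q (a + b) = 1 := by rw [h.add, ha, hb, hab]; decide
  have fixes : ∀ v, (∀ x, B (Pi.single (Sum.inl x) 1) v = 0) → ∀ x,
      tv B v (Pi.single (Sum.inl x) 1) = Pi.single (Sum.inl x) 1 :=
    fun v hv x => tv_of_zero h (hv x)
  have hea' : ∀ x, B (Pi.single (Sum.inl x) 1) (a + b) = 0 := fun x => by
    rw [map_add, hea, heb, add_zero]
  obtain ⟨t, ht, htx, hta⟩ : ∃ t ∈ T Q B,
      (∀ x, t (Pi.single (Sum.inl x) 1) = Pi.single (Sum.inl x) 1) ∧ t ((s * g) a) = a := by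
    rcases hplane _ hsg hfix a hea ha with e | e | e
    · exact ⟨1, one_mem _, fun _ => rfl, e⟩
    · refine ⟨tv B (a + b), tv_mem_T hqab, fixes _ hea', ?_⟩
      rw [e, tv_of_one h (by rw [map_add, hBba, h.self, add_zero]),
        show b + (a + b) = a + (b + b) by abel, add_self', add_zero]
    · refine ⟨tv B b, tv_mem_T hb, fixes _ heb, ?_⟩
      rw [e, tv_of_one h (by rw [map_add, LinearMap.add_apply, hab, h.self, add_zero]),
        add_assoc, add_self', add_zero]
  have hfix2 : ∀ x, (t * (s * g)) (Pi.single (Sum.inl x) 1) = Pi.single (Sum.inl x) 1 := fun x => by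
    rw [LinearEquiv.mul_apply, hfix, htx]
  have hiso2 : t * (s * g) ∈ Iso Q := mul_mem (T_le h ht) hsg
  obtain ⟨r, hr, hrx, hra, hrb⟩ : ∃ r ∈ T Q B,
      (∀ x, r (Pi.single (Sum.inl x) 1) = Pi.single (Sum.inl x) 1) ∧ r a = a ∧
        r ((t * (s * g)) b) = b := by
    have hB1 : B a ((t * (s * g)) b) = 1 := by
      have := iso_B h hiso2 a b
      rw [LinearEquiv.mul_apply, hta, hab] at this
      exact this
    rcases hplane _ hiso2 hfix2 b heb hb with e | e | e
    · rw [e, h.self] at hB1; exact absurd hB1 zero_ne_one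
    · exact ⟨1, one_mem _, fun _ => rfl, rfl, e⟩
    · refine ⟨tv B a, tv_mem_T ha, fixes _ hea, tv_of_zero h (h.self a), ?_⟩
      rw [e, tv_of_one h (by rw [map_add, LinearMap.add_apply, h.self, hBba, zero_add]),
        show a + b + a = b + (a + a) by abel, add_self', add_zero]
  have : (r * t * s) * g = 1 := eq_one_of_basis _ fun x => by
    rw [show r * t * s * g = r * (t * (s * g)) by simp [mul_assoc], LinearEquiv.mul_apply]
    rcases x with x | i
    · rw [hfix2, hrx]
    · fin_cases i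
      · show r ((t * (s * g)) a) = a
        rw [LinearEquiv.mul_apply, hta, hra]
      · exact hrb
  rw [eq_inv_of_mul_eq_one_right this]
  exact inv_mem (mul_mem (mul_mem hr ht) hs)

theorem minus_class (hm : 2 ≤ m) :
    Cfsg.IsThreeTranspositionClass
      {g : ↥(Cfsg.isometryGroup (ZMod 2) (Cfsg.quadFormMinus m (ZMod 2) 1 1)) |
        (((g : GL ((Fin m ⊕ Fin m) ⊕ Fin 2) (ZMod 2)) :
          Matrix ((Fin m ⊕ Fin m) ⊕ Fin 2) ((Fin m ⊕ Fin m) ⊕ Fin 2) (ZMod 2)) - 1).rank = 1} := by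
  refine model_class _ (qf_minus m) (by simp; omega) (gen_minus m) ?_
  exact ⟨Pi.single (Sum.inr 0) 1, by simp [Cfsg.quadFormMinus]⟩

end minus

end Cfsg.Agent.TTClass.OrthModels
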